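import Cfsg.Agent.H720.RIM.Two
import Cfsg.Agent.TwoESix.LeviG
import Cfsg.Agent.TwoESix.LeviHyp
import Cfsg.Agent.TwoESix.ExtTwisted

/-!
# S4816, 2E6(2), p = 3: `Facts (rootClass K)`, existence of the quadruple, orders
-/

set_option autoImplicit false
set_option linter.unusedSectionVars false

namespace Cfsg.Agent.H720.RIM

open Cfsg Cfsg.Lie Cfsg.Agent.BabyU Cfsg.Agent.BabyU.RootCfg Cfsg.Agent.TwoESix
open Cfsg.Agent.LieClassical.HermBasic Cfsg.Agent.R01.PSUSix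
open Cfsg.Agent.ClassicalGeometry.UnitAutBasic (tau pr pr_surjective)
open Cfsg.Agent.SporadicStructure.UnitTwo (two_eq_zero add_self exists_omega vadd_self)

section Conc

open Cfsg.Agent.ChevalleyStructure
open Cfsg.Agent.ChevalleyStructure.Elts hiding x_add x_zero x_eq_one_iff
open Cfsg.Agent.ChevalleyStructure.TwE6Basic
open Cfsg.Agent.ChevalleyStructure.TwE6BN
open Cfsg.Agent.TwoESix.LeviA Cfsg.Agent.TwoESix.LeviB Cfsg.Agent.TwoESix.LeviF Cfsg.Agent.TwoESix.LongPairs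

universe u

variable {K : Type u} [Field K] [Fintype K] {φ : K →+* K} (F : Four K φ)
include F

theorem sq_r0_p25_eq : (r0 F * p25 F) ^ 2 = p70 F := by
  have := F.charP
  apply Subtype.ext
  show (x 71 (1 : K) * x 25 1) ^ 2 = x 70 1
  exact sq25

theorem p70_mem : p70 F ∈ rootClass K := by
  rw [LeviG.rootClass_eq F]
  exact xE_conj F 70 _

/-- the square of a product of order four -/
theorem four_root {r s : ↥(twistedE6 K 2)} (hr : r ∈ rootClass K) (hs : s ∈ rootClass K) (h4 : (r * s) ^ 4 = 1)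
    (h2 : (r * s) ^ 2 ≠ 1) : (r * s) ^ 2 ∈ rootClass K := by
  have RF := LeviG.rootFacts_four F (F' := K) (by have := F.card; simpa using this)
  have hr' := hr
  have hs' := hs
  rw [LeviG.rootClass_eq F] at hr' hs'
  obtain ⟨a, rfl⟩ := hr'
  obtain ⟨c, rfl⟩ := hs'
  obtain ⟨b, hb, hcase⟩ := pair F (a⁻¹ * c)
  -- conjugate by `b a⁻¹`
  have e1 : (b * a⁻¹) * (a * r0 F * a⁻¹ * (c * r0 F * c⁻¹)) * (b * a⁻¹)⁻¹ =
      r0 F * (b * (a⁻¹ * c * r0 F * (a⁻¹ * c)⁻¹) * b⁻¹) := by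
    calc (b * a⁻¹) * (a * r0 F * a⁻¹ * (c * r0 F * c⁻¹)) * (b * a⁻¹)⁻¹
        = (b * r0 F) * (a⁻¹ * c * r0 F * (a⁻¹ * c)⁻¹) * b⁻¹ := by group
      _ = (r0 F * b) * (a⁻¹ * c * r0 F * (a⁻¹ * c)⁻¹) * b⁻¹ := by rw [hb]
      _ = _ := by group
  have back : ∀ n : ℕ, (b * a⁻¹) * ((a * r0 F * a⁻¹) * (c * r0 F * c⁻¹)) ^ n * (b * a⁻¹)⁻¹ =
      (r0 F * (b * (a⁻¹ * c * r0 F * (a⁻¹ * c)⁻¹) * b⁻¹)) ^ n := by
    intro n
    rw [← e1, conj_pow]
  have one_of : ∀ n : ℕ, (r0 F * (b * (a⁻¹ * c * r0 F * (a⁻¹ * c)⁻¹) * b⁻¹)) ^ n = 1 →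
      ((a * r0 F * a⁻¹) * (c * r0 F * c⁻¹)) ^ n = 1 := by
    intro n hn
    rw [← back n, mul_inv_eq_one] at hn
    exact mul_eq_left.1 hn
  have comm2 : ∀ p : ↥(twistedE6 K 2), p * p = 1 → p * r0 F = r0 F * p → (r0 F * p) ^ 2 = 1 := by
    intro p hp hc
    rw [pow_two]
    calc r0 F * p * (r0 F * p) = r0 F * (p * r0 F) * p := by group
      _ = (r0 F * r0 F) * (p * p) := by rw [hc]; group
      _ = 1 := by rw [r0_sq F, hp, mul_one]
  have xsq : ∀ (r : Fin 72) (hr : rho r = r), xE F r hr * xE F r hr = 1 := by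
    intro r hr
    have := F.charP
    exact Subtype.ext (x_sq r.val)
  rcases hcase with h | h | h | h | h
  · exfalso; apply h2; apply one_of; rw [h]; exact comm2 _ (r0_sq F) rfl
  · exfalso; apply h2; apply one_of; rw [h]; exact comm2 _ (xsq _ _) (p70_comm F)
  · exfalso; apply h2; apply one_of; rw [h]; exact comm2 _ (xsq _ _) (p60_comm F)
  · have e2 := back 2
    rw [h, sq_r0_p25_eq F] at e2
    have e3 : ((a * r0 F * a⁻¹) * (c * r0 F * c⁻¹)) ^ 2 = (b * a⁻¹)⁻¹ * p70 F * (b * a⁻¹)⁻¹⁻¹ := by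
      rw [← e2]; group
    rw [e3]
    exact RF.conj _ (p70_mem F) _
  · exfalso
    have h5 : ((a * r0 F * a⁻¹) * (c * r0 F * c⁻¹)) ^ 3 = 1 := by
      apply one_of; rw [h]; exact cube_r0_s0 F
    rw [pow_succ, h5, one_mul] at h4
    apply h2
    rw [h4, one_pow]

end Conc

universe u

variable (K : Type u) [Field K] [Fintype K]

theorem facts (hK : Fintype.card K = 2 ^ 2) : Facts (rootClass K) := by
  have hK4 : Fintype.card K = 4 := by rw [hK]; norm_num
  have RF := LeviG.rootFacts hK4 (F' := K) hK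
  have htr : OppTrans (rootClass K) := fun r hr s hs r' hr' s' hs' h h' =>
    (ExtTwisted.basic K hK4).opp_trans r hr s hs r' hr' s' hs' h.1 h.2 h'.1 h'.2
  obtain ⟨-, φ, F⟩ := LeviA.exists_four K hK4
  exact ⟨RF.sq, RF.ne, RF.conj, RF.ord, htr, fun r hr s hs h t ht k => uniq RF htr hr hs h ht k,
    fun r hr s hs => four_root F hr hs⟩

/-- Existence of two commuting opposite pairs. -/
theorem exists_quad {E : Type*} [Group E] {F : Type*} [Field F] [Fintype F] {hF : Fintype.card F = 2 ^ 2} {R : Set E}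
    (RF : RootFacts hF R) : ∃ r s d e : E, Quad R r s d e := by
  obtain ⟨ω, hω⟩ := exists_omega hF
  obtain ⟨r, hr, s, hs, hop⟩ := RF.opp
  obtain ⟨ψ, C⟩ := RF.chart r hr
  have huu := herm_u0 (F := F) hF (m := 4)
  have hvv := herm_v0 (F := F) hF hω (m := 4)
  have huv := herm_u0_v0 (F := F) hF hω (m := 4)
  have hvu := herm_v0_u0 (F := F) hF hω (m := 4)
  have hu0 := u0_ne_zero (F := F) hF (m := 4)
  have hv0 : (v0 4 ω : Fin 6 → F) ≠ 0 := by
    intro h
    have h1 : hermForm 6 F 2 (v0 4 ω) (u0 F 4) = 1 := hvu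
    rw [h, herm_zero_left] at h1
    exact zero_ne_one h1
  obtain ⟨d, hd, hds, hdv⟩ := C.exists_root hs hop (v := u0 F 4) hu0 huu
  obtain ⟨e, he, hes, hev⟩ := C.exists_root hs hop (v := v0 4 ω) hv0 hvv
  have hdr : d * r = r * d := mem_cent.1 hdv.2.2.1
  have her : e * r = r * e := mem_cent.1 hev.2.2.1
  have hnc : ¬ d * e = e * d := by
    intro hc
    have h1 := (C.comm_iff hs hop hdv hev hds hes).1 hc
    have h2 : hermForm 6 F 2 (u0 F 4) (v0 4 ω) = 1 := huv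
    rw [h1] at h2
    exact zero_ne_one h2
  have h3 : (d * e) ^ 3 = 1 := (C.three RF hs hop hd hdr hds he her hes).resolve_left hnc
  exact ⟨r, s, d, e, hr, hs, hd, he, hop, ⟨fun e => hnc (by rw [e]), h3⟩, hdr, hds, her, hes⟩

theorem card_psu (hK : Fintype.card K = 2 ^ 2) : Nat.card (PSU 6 K 2) = 9196830720 := by
  have h := Cfsg.Agent.S0280.result hK 6 (by norm_num)
  have h1 : Nat.gcd 6 (2 + 1) = 3 := by decide
  have h2 : (∏ i ∈ Finset.range 6, (if Even i then 2 ^ (i + 1) + 1 else 2 ^ (i + 1) - 1)) = 2525985 := by decide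
  rw [h1, h2] at h
  omega

/-- `27` divides the order. -/
theorem dvd_card (hK : Fintype.card K = 2 ^ 2) : 27 ∣ Nat.card ↥(twistedE6 K 2) := by
  have hK4 : Fintype.card K = 4 := by rw [hK]; norm_num
  have RF := LeviG.rootFacts hK4 (F' := K) hK
  obtain ⟨r, hr, s, hs, hop⟩ := RF.opp
  obtain ⟨ψ, -⟩ := LeviHyp.chart_equiv RF hr hs hop
  have h1 : Nat.card ↥(Subgroup.centralizer ({r, s} : Set ↥(twistedE6 K 2))) ∣ Nat.card ↥(twistedE6 K 2) :=
    Subgroup.card_subgroup_dvd_card _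
  rw [Nat.card_congr ψ.toEquiv, card_psu K hK] at h1
  exact (by norm_num : 27 ∣ 9196830720).trans h1

end Cfsg.Agent.H720.RIM
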