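import Cfsg.Agent.H720.RIM.Inst
import Cfsg.Agent.H35.RIM.BRElt

/-!
# S4816, 2E6(2), p = 3: `NB 3 m ²E₆(2)` from the characters of the centraliser of two transvections of `PSU 6 F 2`
-/

set_option autoImplicit false
set_option linter.unusedSectionVars false

namespace Cfsg.Agent.H720.RIM

open Cfsg Cfsg.Lie Cfsg.Agent.BabyU Cfsg.Agent.BabyU.RootCfg Cfsg.Agent.TwoESix
open Cfsg.Agent.LieClassical.HermBasic Cfsg.Agent.R01.PSUSix
open Cfsg.Agent.ClassicalGeometry.UnitAutBasic (tau pr pr_surjective)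

universe u v

/-- The centraliser of two noncommuting transvections of `PSU 6 F 2` (it is `SU 4 F 2`). -/
abbrev V4 {F : Type*} [Field F] [Fintype F] (hF : Fintype.card F = 2 ^ 2) (v w : Fin 6 → F) : Subgroup (PSU 6 F 2) :=
  Subgroup.centralizer {tau hF v, tau hF w}

/-- Central extensions of `PSU 6 F 2` have over every linear character of the kernel a character of `3`-defect zero on
the preimage of `V4`. -/
def ThetaSt {F : Type v} [Field F] [Fintype F] (hF : Fintype.card F = 2 ^ 2) : Prop :=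
  ∀ v w : Fin 6 → F, hermForm 6 F 2 v v = 0 → hermForm 6 F 2 w w = 0 → hermForm 6 F 2 v w ≠ 0 →
    ∀ (A : Type u) [Group A] [Finite A] (ρ : A →* PSU 6 F 2), Function.Surjective ρ → ρ.ker ≤ Subgroup.center A →
      ∀ l : ρ.ker →* ℂˣ, ∃ θ : ↥((V4 hF v w).comap ρ) → ℂ, IsIrrCharacter ↥((V4 hF v w).comap ρ) θ ∧
        (∀ (z : A) (hz : z ∈ ρ.ker) (hz' : z ∈ (V4 hF v w).comap ρ), θ ⟨z, hz'⟩ = θ 1 * l ⟨z, hz⟩) ∧
        (charDegree θ).factorization 3 = (Nat.card ↥(V4 hF v w)).factorization 3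

section

variable {F : Type v} [Field F] [Fintype F] {hF : Fintype.card F = 2 ^ 2}

/-- The transfer to a group with `RootFacts`. -/
theorem theta_of {S : Type u} [Group S] [Finite S] {R : Set S} (RF : RootFacts hF R) (T : ThetaSt.{u} hF)
    {r s d e : S} (q : Quad R r s d e) {E : Type u} [Group E] [Finite E] (π : E →* S) (hsurj : Function.Surjective π)
    (hcen : π.ker ≤ Subgroup.center E) (l : π.ker →* ℂˣ) :
    ∃ θ : ↥(q.L.comap π) → ℂ, IsIrrCharacter ↥(q.L.comap π) θ ∧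
      (∀ (z : E) (hz : z ∈ π.ker) (hz' : z ∈ q.L.comap π), θ ⟨z, hz'⟩ = θ 1 * l ⟨z, hz⟩) ∧
      (charDegree θ).factorization 3 = (Nat.card q.L).factorization 3 := by
  obtain ⟨C, memC, ψ, hψ⟩ : ∃ C : Subgroup S, (∀ g, g ∈ C ↔ g * r = r * g ∧ g * s = s * g) ∧
      ∃ ψ : ↥C ≃* PSU 6 F 2, ∀ x : ↥C, (x : S) ∈ R ↔ ψ x ∈ TT hF 6 :=
    ⟨Subgroup.centralizer {r, s}, fun g => mem_cent2, LeviHyp.chart_equiv RF q.r1 q.s1 q.rs⟩
  have hdC : d ∈ C := (memC d).2 ⟨q.dr, q.ds⟩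
  have heC : e ∈ C := (memC e).2 ⟨q.er, q.es⟩
  obtain ⟨v, v0, vv, hv⟩ := (hψ ⟨d, hdC⟩).1 q.d1
  obtain ⟨w, w0, ww, hw⟩ := (hψ ⟨e, heC⟩).1 q.e1
  have hvw : hermForm 6 F 2 v w ≠ 0 := by
    intro h0
    have h1 : Commute (tau hF v) (tau hF w) := (tau_commute_iff hF (by norm_num) vv ww v0).2 h0
    rw [← hv, ← hw] at h1
    have h2 : (⟨d, hdC⟩ : C) * ⟨e, heC⟩ = ⟨e, heC⟩ * ⟨d, hdC⟩ := by
      apply ψ.injective
      rw [map_mul, map_mul]
      exact h1.eq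
    exact q.de.not_comm (RF.sq d q.d1) (RF.sq e q.e1) (congrArg Subtype.val h2)
  -- the central extension of `PSU 6 F 2`
  set A : Subgroup E := C.comap π with hA
  set ρ : A →* PSU 6 F 2 := ψ.toMonoidHom.comp ((π.comp A.subtype).codRestrict C (fun a => a.2)) with hρ
  have ρa : ∀ a : A, ρ a = ψ ⟨π a, a.2⟩ := fun a => rfl
  have ρsurj : Function.Surjective ρ := by
    intro y
    obtain ⟨c, hc⟩ := ψ.surjective y
    obtain ⟨a, ha⟩ := hsurj c
    refine ⟨⟨a, ?_⟩, ?_⟩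
    · show π a ∈ C
      rw [ha]; exact c.2
    · rw [ρa, ← hc]
      congr 1
      exact Subtype.ext ha
  have ρker : ∀ a : A, a ∈ ρ.ker ↔ (a : E) ∈ π.ker := by
    intro a
    rw [MonoidHom.mem_ker, MonoidHom.mem_ker, ρa, map_eq_one_iff ψ ψ.injective]
    constructor
    · intro h; exact congrArg Subtype.val h
    · intro h; exact Subtype.ext h
  have ρcen : ρ.ker ≤ Subgroup.center A := by
    intro a ha
    rw [Subgroup.mem_center_iff]
    intro b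
    exact Subtype.ext ((Subgroup.mem_center_iff.1 (hcen ((ρker a).1 ha))) b)
  set l' : ρ.ker →* ℂˣ := l.comp ((A.subtype.comp ρ.ker.subtype).codRestrict π.ker
    (fun a => (ρker a.1).1 a.2)) with hl'
  obtain ⟨θ, h1, h2, h3⟩ := T v w vv ww hvw A ρ ρsurj ρcen l'
  -- the preimages
  have hmem : ∀ g : E, g ∈ q.L.comap π ↔ ∃ h : g ∈ A, (⟨g, h⟩ : A) ∈ (V4 hF v w).comap ρ := by
    intro g
    rw [Subgroup.mem_comap, q.mem_L]
    have cm : ∀ (h : g ∈ A) {a : S} (ha : a ∈ C), ρ ⟨g, h⟩ * ψ ⟨a, ha⟩ = ψ ⟨a, ha⟩ * ρ ⟨g, h⟩ ↔ π g * a = a * π g := by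
      intro h a ha
      rw [ρa, ← map_mul, ← map_mul, ψ.injective.eq_iff]
      exact Subtype.ext_iff
    constructor
    · rintro ⟨hrs, hd, he⟩
      have hgA : g ∈ A := (memC _).2 hrs
      refine ⟨hgA, ?_⟩
      rw [Subgroup.mem_comap, mem_cent2, ← hv, ← hw]
      exact ⟨(cm hgA hdC).2 hd, (cm hgA heC).2 he⟩
    · rintro ⟨hgA, hg⟩
      rw [Subgroup.mem_comap, mem_cent2, ← hv, ← hw] at hg
      exact ⟨(memC _).1 hgA, (cm hgA hdC).1 hg.1, (cm hgA heC).1 hg.2⟩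
  let f : ↥(q.L.comap π) →* ↥((V4 hF v w).comap ρ) :=
    MonoidHom.mk' (fun g => ⟨⟨g.1, ((hmem g.1).1 g.2).choose⟩, ((hmem g.1).1 g.2).choose_spec⟩) (fun a b => rfl)
  have fsurj : Function.Surjective f := by
    rintro ⟨⟨g, hg⟩, hg'⟩
    exact ⟨⟨g, (hmem g).2 ⟨hg, hg'⟩⟩, rfl⟩
  have hf1 : f 1 = 1 := map_one f
  refine ⟨fun g => θ (f g), Cfsg.Agent.Characters.Core.isIrr_comp f fsurj h1, ?_, ?_⟩
  · intro z hz hz'
    have hzA : z ∈ A := ((hmem z).1 hz').choose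
    have hzρ : (⟨z, hzA⟩ : A) ∈ ρ.ker := (ρker _).2 hz
    have e1 := h2 ⟨z, hzA⟩ hzρ ((hmem z).1 hz').choose_spec
    show θ (f ⟨z, hz'⟩) = θ (f 1) * l ⟨z, hz⟩
    rw [hf1]
    exact e1
  · have e1 : charDegree (fun g => θ (f g)) = charDegree θ := by
      unfold charDegree
      show ⌊(θ (f 1)).re⌋₊ = _
      rw [hf1]
    rw [e1, h3]
    have e0 : Nat.card ↥(V4 hF v w) = Nat.card q.L := ?_
    · rw [e0]
    -- the orders
    have hLC : q.L ≤ C := by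
      intro g hg
      exact (memC g).2 ((q.mem_L).1 hg).1
    have e2 : (V4 hF v w).comap ψ.toMonoidHom = q.L.subgroupOf C := by
      ext g
      rw [Subgroup.mem_comap, Subgroup.mem_subgroupOf, q.mem_L, mem_cent2, ← hv, ← hw]
      have cm : ∀ {a : S} (ha : a ∈ C), ψ g * ψ ⟨a, ha⟩ = ψ ⟨a, ha⟩ * ψ g ↔ (g : S) * a = a * g := by
        intro a ha
        rw [← map_mul, ← map_mul, ψ.injective.eq_iff]
        exact Subtype.ext_iff
      constructor
      · intro h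
        exact ⟨(memC _).1 g.2, (cm hdC).1 h.1, (cm heC).1 h.2⟩
      · intro h
        exact ⟨(cm hdC).2 h.2.1, (cm heC).2 h.2.2⟩
    have e3 : Nat.card ↥(q.L.subgroupOf C) = Nat.card q.L :=
      Nat.card_congr (Subgroup.subgroupOfEquivOfLe hLC).toEquiv
    rw [← e3, ← e2]
    have e4 : (V4 hF v w).comap ψ.toMonoidHom = (V4 hF v w).map ψ.symm.toMonoidHom := by
      rw [Subgroup.comap_equiv_eq_map_symm' ψ (V4 hF v w)]
    rw [e4]
    exact (Nat.card_congr ((V4 hF v w).equivMapOfInjective ψ.symm.toMonoidHom ψ.symm.injective).toEquiv)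

end

/-- **`NB 3 m ²E₆(2)`, from `ThetaSt`.** -/
theorem nb3_of {K : Type u} [Field K] [Fintype K] (hK : Fintype.card K = 2 ^ 2) (T : ThetaSt.{u} hK) {m : ℕ}
    (hm : ¬ 3 ∣ m) : Cfsg.Agent.H665.RIM.NB 3 m ↥(twistedE6 K 2) := by
  haveI : Fact (Nat.Prime 3) := ⟨by norm_num⟩
  have hK4 : Fintype.card K = 4 := by rw [hK]; norm_num
  have RF := LeviG.rootFacts hK4 (F' := K) hK
  have H := facts K hK
  obtain ⟨r, s, d, e, q⟩ := exists_quad RF
  refine Cfsg.Agent.H35.RIM.nb_of_sub (Q := q.Q) (L := q.L) hm (isPGroup_QQ q.x3 q.swap.x3) QQ_le (q.cent_eq H)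
    (q.inf_eq H) (q.relIndex H) ?_ ?_
  · have h1 : Nat.card q.Q ∣ 9 := card_QQ q.x3 q.swap.x3
    exact (Nat.mul_dvd_mul_right h1 3).trans (dvd_card K hK)
  · intro E _ _ π hsurj hcen _ _ l _
    exact theta_of RF T q π hsurj hcen l

end Cfsg.Agent.H720.RIM
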