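import Cfsg.Agent.H720.RIM.Theta
import Cfsg.Agent.H325.RIM.Surv

/-!
# S4816: the field `te62` of `RowsNB` (`²E₆(2)`, `p = 3`)
-/

set_option autoImplicit false

namespace Cfsg.Agent.H720.RIM

open Cfsg Cfsg.Agent.H665.RIM Cfsg.Agent.OrdDiv Cfsg.Agent.H436 Cfsg.Agent.H325.RIM

/-- **the field `te62` of `RowsNB`** -/
theorem te62 : NBRow 3 (.te6 2) := by
  intro S _ _ hS _
  obtain ⟨F, _, _, hF, ⟨e⟩⟩ := hS.real
  exact H325.RIM.NBall.congr e (nball3 hF)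

end Cfsg.Agent.H720.RIM
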