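import Cfsg.Agent.H720.RIM.Main
import Cfsg.Agent.H720.RIM.V4
import Cfsg.Agent.H655.RIM.St81
import Cfsg.Agent.H905.PCover
import Cfsg.Agent.H95.StemCover
import Cfsg.Agent.OddOrderCharacters.AbelianTwist
import Cfsg.Agent.S2089

/-!
# S4816, 2E6(2), p = 3: the characters of `3`-defect zero on the preimage of `V4 = SU 4 F 2`; `NB 3 m ²E₆(2)`
-/

set_option autoImplicit false
set_option linter.unusedSectionVars false

namespace Cfsg.Agent.H720.RIM

open Cfsg Cfsg.Lie Cfsg.Agent.LieClassical.HermBasic Cfsg.Agent.R01.PSUSix Function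
open Cfsg.Agent.ClassicalGeometry.UnitAutBasic (tau pr pr_surjective)

universe u v

/-- Central extensions of perfect groups with trivial multiplier split. -/
theorem exists_section {Y B : Type*} [Group Y] [Group B] (hY : commutator Y = ⊤) (hM : HasCyclicSchurMultiplier Y 1)
    (π : B →* Y) (hs : Surjective π) (hc : π.ker ≤ Subgroup.center B) : ∃ σ : Y →* B, ∀ y, π (σ y) = y := by
  obtain ⟨hP1, hP2⟩ := H905.PCover.commutator_perfect hY hs hc
  let π' : commutator B →* Y := π.comp (commutator B).subtype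
  have hπ's : Surjective π' := by
    intro y
    have : y ∈ (commutator B).map π := by rw [hP2]; trivial
    obtain ⟨x, hx, rfl⟩ := this
    exact ⟨⟨x, hx⟩, rfl⟩
  have hπ'k : π'.ker ≤ Subgroup.center (commutator B) := by
    intro x hx
    have h1 : (x : B) ∈ Subgroup.center B := hc hx
    rw [Subgroup.mem_center_iff]
    intro y
    exact Subtype.ext (Subgroup.mem_center_iff.1 h1 y)
  have hcard := H95.StemCover.card_ker_dvd_cyclic hM hP1 π' hπ's hπ'k
  have hker : π'.ker = ⊥ := Subgroup.card_eq_one.1 (Nat.dvd_one.1 hcard)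
  have hinj : Injective π' := (MonoidHom.ker_eq_bot_iff π').1 hker
  let e : commutator B ≃* Y := MulEquiv.ofBijective π' ⟨hinj, hπ's⟩
  refine ⟨(commutator B).subtype.comp e.symm.toMonoidHom, fun y => ?_⟩
  exact e.apply_symm_apply y

section

variable {F : Type v} [Field F] [Fintype F] (hF : Fintype.card F = 2 ^ 2)
include hF

theorem mult_five : HasCyclicSchurMultiplier (PSU 5 F 2) 1 := by
  have h := Cfsg.Agent.S2089.result (F := F) 5 2 hF (by norm_num) (by norm_num) (by simp)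
  exact h

theorem perfect_five : commutator (PSU 5 F 2) = ⊤ := by
  have h : commutator (SU 5 F 2) = ⊤ :=
    Cfsg.Agent.LieClassical.HermPerfect.commutator_SU_eq_top (F := F) (q := 2) hF (by norm_num) (by norm_num)
  rw [commutator_def, ← Subgroup.map_top_of_surjective (pr 5 F 2) pr_surjective, ← Subgroup.map_commutator,
    ← commutator_def, h]

/-- the splitting over `V4` -/
theorem exists_sec {v w : Fin 6 → F} (hv : hermForm 6 F 2 v v = 0) (hw : hermForm 6 F 2 w w = 0)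
    (hvw : hermForm 6 F 2 v w ≠ 0) {A : Type u} [Group A] (ρ : A →* PSU 6 F 2) (hs : Surjective ρ)
    (hc : ρ.ker ≤ Subgroup.center A) : ∃ σ : ↥(V4 hF v w) →* A, ∀ x : ↥(V4 hF v w), ρ (σ x) = x := by
  obtain ⟨-, M, hM, ⟨i5⟩⟩ := v4 hF hv hw hvw
  set B : Subgroup A := M.comap ρ with hB
  let ρ' : B →* M := (ρ.comp B.subtype).codRestrict M (fun b => b.2)
  have hρ' : ∀ b : B, (ρ' b : PSU 6 F 2) = ρ b := fun b => rfl
  obtain ⟨σ, hσ⟩ := exists_section (perfect_five hF) (mult_five hF) (i5.toMonoidHom.comp ρ') (by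
    intro y
    obtain ⟨m, rfl⟩ := i5.surjective y
    obtain ⟨a, ha⟩ := hs m
    refine ⟨⟨a, ?_⟩, ?_⟩
    · show ρ a ∈ M
      rw [ha]; exact m.2
    · show i5 (ρ' ⟨a, _⟩) = i5 m
      congr 1
      exact Subtype.ext ha) (by
    intro b hb
    rw [Subgroup.mem_center_iff]
    intro c
    have h1 : i5 (ρ' b) = 1 := hb
    have h2 : ρ' b = 1 := (map_eq_one_iff i5 i5.injective).1 h1
    have h3 : (b : A) ∈ ρ.ker := congrArg Subtype.val h2
    exact Subtype.ext (Subgroup.mem_center_iff.1 (hc h3) c))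
  refine ⟨(B.subtype.comp (σ.comp i5.toMonoidHom)).comp (Subgroup.inclusion hM), fun x => ?_⟩
  have h1 := hσ (i5 (Subgroup.inclusion hM x))
  have h2 : ρ' (σ (i5 (Subgroup.inclusion hM x))) = Subgroup.inclusion hM x := i5.injective h1
  exact congrArg Subtype.val h2

/-- **`ThetaSt`** -/
theorem theta : ThetaSt.{u} hF := by
  intro v w hv hw hvw A _ _ ρ hs hc l
  have hF4 : Fintype.card F = 4 := by rw [hF]; norm_num
  obtain ⟨V, hVe, ⟨i4⟩, σ, hσ⟩ : ∃ V : Subgroup (PSU 6 F 2), V = V4 hF v w ∧ Nonempty (↥V ≃* PSU 4 F 2) ∧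
      ∃ σ : ↥V →* A, ∀ x : ↥V, ρ (σ x) = x :=
    ⟨V4 hF v w, rfl, (v4 hF hv hw hvw).1, exists_sec hF hv hw hvw ρ hs hc⟩
  rw [← hVe]
  obtain ⟨χ, hχ, hχd⟩ := Cfsg.Agent.H655.RIM.exists_eightyone (F := F) hF4
  set B : Subgroup A := V.comap ρ with hB
  let ρ' : B →* V := (ρ.comp B.subtype).codRestrict V (fun b => b.2)
  have hρ's : Surjective ρ' := by
    intro y
    obtain ⟨a, ha⟩ := hs y
    exact ⟨⟨a, by show ρ a ∈ V; rw [ha]; exact y.2⟩, Subtype.ext ha⟩
  -- the central part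
  have hz : ∀ b : B, (b : A) * (σ (ρ' b))⁻¹ ∈ ρ.ker := by
    intro b
    rw [MonoidHom.mem_ker, map_mul, map_inv, hσ]
    exact mul_inv_cancel _
  let z : B →* ρ.ker := MonoidHom.mk' (fun b => ⟨(b : A) * (σ (ρ' b))⁻¹, hz b⟩) (by
    intro a b
    apply Subtype.ext
    show (a : A) * b * (σ (ρ' (a * b)))⁻¹ = (a : A) * (σ (ρ' a))⁻¹ * ((b : A) * (σ (ρ' b))⁻¹)
    have h1 := Subgroup.mem_center_iff.1 (hc (hz b)) ((σ (ρ' a))⁻¹)
    rw [map_mul, map_mul, mul_inv_rev]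
    calc (a : A) * b * ((σ (ρ' b))⁻¹ * (σ (ρ' a))⁻¹) = (a : A) * (((b : A) * (σ (ρ' b))⁻¹) * (σ (ρ' a))⁻¹) := by group
      _ = (a : A) * ((σ (ρ' a))⁻¹ * ((b : A) * (σ (ρ' b))⁻¹)) := by rw [h1]
      _ = _ := by group)
  let g : B →* SU 4 F 2 := ((suEquiv hF (Or.inl rfl)).symm.toMonoidHom.comp i4.toMonoidHom).comp ρ'
  have hg : Surjective g := ((suEquiv hF (Or.inl rfl)).symm.surjective.comp i4.surjective).comp hρ's
  have h1 : IsIrrCharacter B (fun b => χ (g b)) := Cfsg.Agent.Characters.Core.isIrr_comp g hg hχ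
  letI : Fintype B := Fintype.ofFinite _
  have h2 := Cfsg.Agent.OddOrderCharacters.AbelianTwist.isIrr_hom_mul (l.comp z) h1
  have hg1 : g 1 = 1 := map_one g
  have hz1 : z 1 = 1 := map_one z
  refine ⟨_, h2, ?_, ?_⟩
  · intro a ha ha'
    have e1 : ρ' ⟨a, ha'⟩ = 1 := Subtype.ext ha
    have e2 : g ⟨a, ha'⟩ = 1 := by
      show (suEquiv hF (Or.inl rfl)).symm (i4 (ρ' ⟨a, ha'⟩)) = 1
      rw [e1, map_one, map_one]
    have e3 : z ⟨a, ha'⟩ = ⟨a, ha⟩ := by
      apply Subtype.ext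
      show a * (σ (ρ' ⟨a, ha'⟩))⁻¹ = a
      rw [e1, map_one, inv_one, mul_one]
    show ((l (z ⟨a, ha'⟩) : ℂˣ) : ℂ) * χ (g ⟨a, ha'⟩) = ((l (z 1) : ℂˣ) : ℂ) * χ (g 1) * ((l ⟨a, ha⟩ : ℂˣ) : ℂ)
    rw [e2, e3, hg1, hz1, map_one]
    push_cast
    ring
  · have e1 : charDegree (fun b : B => ((l.comp z b : ℂˣ) : ℂ) * χ (g b)) = 81 := by
      apply Cfsg.Agent.Blocks.Basic.charDegree_of_eq
      show ((l (z 1) : ℂˣ) : ℂ) * χ (g 1) = _
      rw [hz1, hg1, map_one, Cfsg.Agent.Blocks.Basic.irr_one_eq_charDegree hχ, hχd]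
      push_cast
      ring
    rw [e1, Nat.card_congr i4.toEquiv, Cfsg.Agent.H655.RIM.card_psu4 hF4, Cfsg.Agent.H655.RIM.fact_num]
    rw [show (81 : ℕ) = 3 ^ 4 by norm_num, Nat.Prime.factorization_pow Nat.prime_three, Finsupp.single_eq_same]

end

/-- **`NB 3 m ²E₆(2)` for all `m` prime to `3`** -/
theorem nb3 {K : Type u} [Field K] [Fintype K] (hK : Fintype.card K = 2 ^ 2) {m : ℕ} (hm : ¬ 3 ∣ m) :
    Cfsg.Agent.H665.RIM.NB 3 m ↥(twistedE6 K 2) :=
  nb3_of hK (theta hK) hm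

/-- **`NBall 3 ²E₆(2)`** -/
theorem nball3 {K : Type u} [Field K] [Fintype K] (hK : Fintype.card K = 2 ^ 2) :
    Cfsg.Agent.H665.RIM.NBall 3 ↥(twistedE6 K 2) :=
  fun _ _ hm => nb3 hK hm

end Cfsg.Agent.H720.RIM
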