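import Cfsg.Agent.H720.RIM.Cent

/-!
# S4816, 2E6(2), p = 3: two commuting opposite pairs, `Q = ⟨r s, d e⟩`, `C(Q) = Q × C(r, s, d, e)`, `N(Q)/C(Q)` is a `3'`-group
-/

set_option autoImplicit false
set_option linter.unusedSectionVars false

namespace Cfsg.Agent.H720.RIM

open Cfsg Cfsg.Agent.BabyU.RootCfg

variable {E : Type*} [Group E] {R : Set E}

/-- Two commuting opposite pairs. -/
structure Quad (R : Set E) (r s d e : E) : Prop where
  r1 : r ∈ R
  s1 : s ∈ R
  d1 : d ∈ R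
  e1 : e ∈ R
  rs : Opp r s
  de : Opp d e
  dr : d * r = r * d
  ds : d * s = s * d
  er : e * r = r * e
  es : e * s = s * e

namespace Quad

variable {r s d e : E}

theorem swap (q : Quad R r s d e) : Quad R d e r s :=
  ⟨q.d1, q.e1, q.r1, q.s1, q.de, q.rs, q.dr.symm, q.er.symm, q.ds.symm, q.es.symm⟩

theorem flip1 (H : Facts R) (q : Quad R r s d e) : Quad R s r d e :=
  ⟨q.s1, q.r1, q.d1, q.e1, q.rs.symm (H.sq r q.r1) (H.sq s q.s1), q.de, q.ds, q.dr, q.es, q.er⟩

theorem flip2 (H : Facts R) (q : Quad R r s d e) : Quad R r s e d :=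
  ⟨q.r1, q.s1, q.e1, q.d1, q.rs, q.de.symm (H.sq d q.d1) (H.sq e q.e1), q.er, q.es, q.dr, q.ds⟩

theorem ry (q : Quad R r s d e) : Commute r (d * e) :=
  (show Commute d r from q.dr).symm.mul_right (show Commute e r from q.er).symm

theorem sy (q : Quad R r s d e) : Commute s (d * e) :=
  (show Commute d s from q.ds).symm.mul_right (show Commute e s from q.es).symm

theorem xy (q : Quad R r s d e) : Commute (r * s) (d * e) := q.ry.mul_left q.sy

theorem x3 (q : Quad R r s d e) : (r * s) ^ 3 = 1 := q.rs.2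

theorem x_ne (H : Facts R) (q : Quad R r s d e) : r * s ≠ 1 := opp_ne (H.sq s q.s1) q.rs

theorem inv_eq (H : Facts R) (q : Quad R r s d e) : (r * s)⁻¹ = s * r := by
  rw [mul_inv_rev, inv_eq_of_mul_eq_one_left (H.sq r q.r1), inv_eq_of_mul_eq_one_left (H.sq s q.s1)]

theorem rx (H : Facts R) (q : Quad R r s d e) : r * (r * s) * r⁻¹ = (r * s)⁻¹ :=
  Inv.left (H.sq r q.r1) (H.sq s q.s1)

theorem sx (H : Facts R) (q : Quad R r s d e) : s * (r * s) * s⁻¹ = (r * s)⁻¹ :=
  Inv.right (H.sq r q.r1) (H.sq s q.s1)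

end Quad

/-- an element of order three is not equal to its inverse -/
theorem ne_inv {x : E} (h3 : x ^ 3 = 1) (hne : x ≠ 1) : x ≠ x⁻¹ := by
  intro h
  apply hne
  have h5 : x * x = 1 := by
    calc x * x = x * x⁻¹ := by rw [← h]
      _ = 1 := mul_inv_cancel x
  rw [p3, h5, one_mul] at h3
  exact h3

theorem opp_conj (H : Facts R) {r s : E} (hr : r ∈ R) (hs : s ∈ R) (h : Opp r s) (g : E) :
    g * r * g⁻¹ ∈ R ∧ g * s * g⁻¹ ∈ R ∧ Opp (g * r * g⁻¹) (g * s * g⁻¹) ∧
      (g * r * g⁻¹) * (g * s * g⁻¹) = g * (r * s) * g⁻¹ :=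
  ⟨H.conj r hr g, H.conj s hs g, h.conj g, by group⟩

/-- **`x y` is not a product of two opposite members of `R`.** -/
theorem not_xy (H : Facts R) {r s d e : E} (q : Quad R r s d e) {r' s' : E} (hr' : r' ∈ R) (hs' : s' ∈ R)
    (h : Opp r' s') : r' * s' ≠ (r * s) * (d * e) := by
  intro hw
  have hrr := H.sq r q.r1
  have hri : r⁻¹ = r := inv_eq_of_mul_eq_one_left hrr
  set x := r * s with hx
  set y := d * e with hy
  have hxy : Commute x y := q.xy
  have x3 : x ^ 3 = 1 := q.x3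
  have y3 : y ^ 3 = 1 := q.swap.x3
  have xne : x ≠ 1 := q.x_ne H
  have yne : y ≠ 1 := q.swap.x_ne H
  have xi : x⁻¹ = x * x := by
    rw [inv_eq_iff_mul_eq_one, ← mul_assoc, ← p3, x3]
  have yi : y⁻¹ = y * y := by
    rw [inv_eq_iff_mul_eq_one, ← mul_assoc, ← p3, y3]
  have hcx : x * (r' * s') = (r' * s') * x := by
    rw [hw]
    exact ((Commute.refl x).mul_right hxy).eq
  -- members of `R` commuting with `x` commute with `r`
  have A : ∀ {a : E}, a ∈ R → a * x = x * a → a * r = r * a := fun ha hc => (comm_pair H q.r1 q.s1 q.rs ha hc).1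
  have B : ∀ {a : E}, a ∈ R → a * y = y * a → a * d = d * a := fun ha hc => (comm_pair H q.d1 q.e1 q.de ha hc).1
  have hrx : r * x * r⁻¹ = x⁻¹ := q.rx H
  have hdy : d * y * d⁻¹ = y⁻¹ := q.swap.rx H
  have hry : r * y * r⁻¹ = y := by rw [show r * y = y * r from q.ry.eq, mul_inv_cancel_right]
  have hdx : d * x * d⁻¹ = x := by rw [show d * x = x * d from q.swap.ry.eq, mul_inv_cancel_right]
  obtain ⟨c, hc, k | k | k⟩ := cent_dec H hr' hs' h hcx
  · -- `x` commutes with `r'` and `s'`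
    rw [← k] at hc
    have h1 := A hr' hc.1.symm
    have h2 := A hs' hc.2.symm
    have h3 : r * (r' * s') * r⁻¹ = r' * s' := by
      have : Commute (r' * s') r := Commute.mul_left (show Commute r' r from h1) (show Commute s' r from h2)
      rw [← this.eq]; group
    rw [hw] at h3
    have h4 : r * (x * y) * r⁻¹ = (r * x * r⁻¹) * (r * y * r⁻¹) := by group
    rw [h4, hrx, hry] at h3
    exact ne_inv x3 xne (mul_right_cancel h3).symm
  · -- `y` commutes with `r'` and `s'`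
    have h0 : c = y⁻¹ := by
      have h1 : x = x * y * c := by rw [← hw]; exact k
      have h2 : x * (y * c) = x * 1 := by rw [← mul_assoc, ← h1, mul_one]
      exact (inv_eq_of_mul_eq_one_right (mul_left_cancel h2)).symm
    have hy1 : ∀ {a : E}, c * a = a * c → a * y = y * a := by
      intro a ha
      rw [h0] at ha
      exact (Commute.inv_left_iff.1 (show Commute y⁻¹ a from ha)).eq.symm
    have h1 := B hr' (hy1 hc.1)
    have h2 := B hs' (hy1 hc.2)
    have h3 : d * (r' * s') * d⁻¹ = r' * s' := by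
      have : Commute (r' * s') d := Commute.mul_left (show Commute r' d from h1) (show Commute s' d from h2)
      rw [← this.eq]; group
    rw [hw] at h3
    have h4 : d * (x * y) * d⁻¹ = (d * x * d⁻¹) * (d * y * d⁻¹) := by group
    rw [h4, hdx, hdy] at h3
    exact ne_inv y3 yne (mul_left_cancel h3).symm
  · -- `x⁻¹ y` commutes with `r'` and `s'`
    have hv : c = x⁻¹ * y := by
      have h1 : x = (x * y) * (x * y) * c := by rw [← hw]; exact k
      have h2 : (x * y) * (x * y) = (x⁻¹) * (y⁻¹) := by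
        rw [xi, yi]
        calc (x * y) * (x * y) = x * (y * x) * y := by group
          _ = x * (x * y) * y := by rw [hxy.eq]
          _ = _ := by group
      rw [h2] at h1
      calc c = y * x * (x⁻¹ * y⁻¹ * c) := by group
        _ = y * x * x := by rw [← h1]
        _ = y * x⁻¹ := by rw [xi, mul_assoc]
        _ = x⁻¹ * y := hxy.symm.inv_right.eq
    obtain ⟨b1, b2, b3, b4⟩ := opp_conj H hr' hs' h r
    set r2 := r * r' * r⁻¹ with hr2
    set s2 := r * s' * r⁻¹ with hs2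
    have hvv : r2 * s2 = c := by
      rw [b4, hw, hv]
      calc r * (x * y) * r⁻¹ = (r * x * r⁻¹) * (r * y * r⁻¹) := by group
        _ = x⁻¹ * y := by rw [hrx, hry]
    have hcr : r' * (r2 * s2) = (r2 * s2) * r' := by rw [hvv]; exact hc.1.symm
    obtain ⟨c1, c2⟩ := comm_pair H b1 b2 b3 hr' hcr
    have r'r' := H.sq r' hr'
    have r2r2 := H.sq r2 b1
    have v3 : (r2 * s2) ^ 3 = 1 := b3.2
    have vne : r2 * s2 ≠ 1 := opp_ne (H.sq s2 b2) b3
    -- `(r r')² = r2 r'`
    have e1 : (r * r') ^ 2 = r2 * r' := by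
      rw [pow_two, hr2, hri]; group
    have e2 : (r * r') ^ 4 = 1 := by
      have : (r * r') ^ 4 = ((r * r') ^ 2) ^ 2 := by rw [← pow_mul]
      rw [this, e1, pow_two]
      calc r2 * r' * (r2 * r') = r2 * (r' * r2) * r' := by group
        _ = (r2 * r2) * (r' * r') := by rw [c1]; group
        _ = 1 := by rw [r'r', r2r2, mul_one]
    have e3 : (r * r') ^ 2 ≠ 1 := by
      rw [e1]
      intro h0
      have h1 : r2 = r' := by rw [eq_inv_of_mul_eq_one_left h0, inv_eq_of_mul_eq_one_left r'r']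
      have h2 : Inv r2 (r2 * s2) := Inv.left r2r2 (H.sq s2 b2)
      rw [h1] at h2 hcr v3 vne
      exact not_both v3 vne h2 hcr
    have e4 := H.four r q.r1 r' hr' e2 e3
    rw [e1] at e4
    have hcv : Commute r' (r2 * s2) := hcr
    have e5 : (r2 * r') * s2 = r' * (r2 * s2) := by rw [← c1]; group
    rcases H.ord (r2 * r') e4 s2 b2 with k4 | k4
    · rw [e5, hcv.mul_pow, p4 r', p4 (r2 * s2), r'r', one_mul, r'r', one_mul] at k4
      have h6 : r2 * s2 * (r2 * s2) * (r2 * s2) = 1 := by rw [← p3, v3]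
      rw [h6, one_mul] at k4
      exact vne k4
    · rw [e5, hcv.mul_pow, v3, mul_one, p3, r'r', one_mul] at k4
      exact H.ne r' hr' k4

/-- powers of an element of order three -/
theorem zpow_cases {x : E} (h : x ^ 3 = 1) (i : ℤ) : x ^ i = 1 ∨ x ^ i = x ∨ x ^ i = x⁻¹ := by
  have h' : x ^ (3 : ℤ) = 1 := by exact_mod_cast h
  have e : x ^ i = x ^ (i % 3) := by
    conv_lhs => rw [← Int.emod_add_mul_ediv i 3]
    rw [zpow_add, zpow_mul, h', one_zpow, mul_one]
  have h0 : 0 ≤ i % 3 := Int.emod_nonneg _ (by norm_num)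
  have h1 : i % 3 < 3 := Int.emod_lt_of_pos _ (by norm_num)
  have h2 : i % 3 = 0 ∨ i % 3 = 1 ∨ i % 3 = 2 := by omega
  rcases h2 with h2 | h2 | h2
  · left; rw [e, h2, zpow_zero]
  · right; left; rw [e, h2, zpow_one]
  · right; right
    rw [e, h2]
    rw [eq_comm, inv_eq_iff_mul_eq_one, ← h']
    rw [show (3 : ℤ) = 1 + 2 by norm_num, zpow_add, zpow_one]

/-- The group `⟨x, y⟩` for commuting `x, y`. -/
def QQ (x y : E) (h : Commute x y) : Subgroup E where
  carrier := {g | ∃ i j : ℤ, g = x ^ i * y ^ j}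
  one_mem' := ⟨0, 0, by rw [zpow_zero, zpow_zero, one_mul]⟩
  mul_mem' := by
    rintro _ _ ⟨i, j, rfl⟩ ⟨k, l, rfl⟩
    refine ⟨i + k, j + l, ?_⟩
    rw [zpow_add, zpow_add]
    calc x ^ i * y ^ j * (x ^ k * y ^ l) = x ^ i * (y ^ j * x ^ k) * y ^ l := by group
      _ = x ^ i * (x ^ k * y ^ j) * y ^ l := by rw [(h.zpow_zpow k j).eq]
      _ = _ := by group
  inv_mem' := by
    rintro _ ⟨i, j, rfl⟩
    refine ⟨-i, -j, ?_⟩
    rw [mul_inv_rev, zpow_neg, zpow_neg]
    exact ((h.zpow_zpow i j).inv_inv).eq.symm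

theorem mem_QQ {x y : E} {h : Commute x y} {g : E} : g ∈ QQ x y h ↔ ∃ i j : ℤ, g = x ^ i * y ^ j := Iff.rfl

theorem x_mem {x y : E} {h : Commute x y} : x ∈ QQ x y h := ⟨1, 0, by rw [zpow_one, zpow_zero, mul_one]⟩

theorem y_mem {x y : E} {h : Commute x y} : y ∈ QQ x y h := ⟨0, 1, by rw [zpow_one, zpow_zero, one_mul]⟩

theorem mem_cases {x y : E} {h : Commute x y} (x3 : x ^ 3 = 1) (y3 : y ^ 3 = 1) {g : E} (hg : g ∈ QQ x y h) :
    ∃ a b : E, (a = 1 ∨ a = x ∨ a = x⁻¹) ∧ (b = 1 ∨ b = y ∨ b = y⁻¹) ∧ g = a * b := by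
  obtain ⟨i, j, rfl⟩ := hg
  exact ⟨x ^ i, y ^ j, zpow_cases x3 i, zpow_cases y3 j, rfl⟩

/-- an element commutes with `QQ` if it commutes with the generators -/
theorem mem_cent_QQ {x y : E} {h : Commute x y} {g : E} :
    g ∈ Subgroup.centralizer (QQ x y h : Set E) ↔ g * x = x * g ∧ g * y = y * g := by
  rw [Subgroup.mem_centralizer_iff]
  constructor
  · intro k
    exact ⟨(k x x_mem).symm, (k y y_mem).symm⟩
  · rintro ⟨h1, h2⟩ _ ⟨i, j, rfl⟩
    have h3 : Commute g x := h1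
    have h4 : Commute g y := h2
    exact ((h3.zpow_right i).mul_right (h4.zpow_right j)).eq.symm

theorem QQ_le {x y : E} {h : Commute x y} : QQ x y h ≤ Subgroup.centralizer (QQ x y h : Set E) := by
  rintro _ ⟨i, j, rfl⟩
  rw [mem_cent_QQ]
  exact ⟨(((Commute.refl x).zpow_left i).mul_left (h.symm.zpow_left j)).eq,
    ((h.zpow_left i).mul_left ((Commute.refl y).zpow_left j)).eq⟩

theorem isPGroup_QQ {x y : E} {h : Commute x y} (x3 : x ^ 3 = 1) (y3 : y ^ 3 = 1) : IsPGroup 3 (QQ x y h) := by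
  rintro ⟨_, i, j, rfl⟩
  refine ⟨1, Subtype.ext ?_⟩
  show (x ^ i * y ^ j) ^ (3 ^ 1) = 1
  have e1 : (x ^ i) ^ 3 = 1 := by
    rw [← zpow_natCast, ← zpow_mul, mul_comm, zpow_mul, zpow_natCast, x3, one_zpow]
  have e2 : (y ^ j) ^ 3 = 1 := by
    rw [← zpow_natCast, ← zpow_mul, mul_comm, zpow_mul, zpow_natCast, y3, one_zpow]
  rw [pow_one, (h.zpow_zpow i j).mul_pow, e1, e2, one_mul]

theorem card_QQ [Finite E] {x y : E} {h : Commute x y} (x3 : x ^ 3 = 1) (y3 : y ^ 3 = 1) :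
    Nat.card (QQ x y h) ∣ 9 := by
  have hsurj : Function.Surjective (fun p : Fin 3 × Fin 3 => (⟨x ^ (p.1 : ℕ) * y ^ (p.2 : ℕ),
      ⟨(p.1 : ℕ), (p.2 : ℕ), by rw [zpow_natCast, zpow_natCast]⟩⟩ : QQ x y h)) := by
    have key : ∀ {z : E}, z ^ 3 = 1 → ∀ a : E, (a = 1 ∨ a = z ∨ a = z⁻¹) → ∃ k : Fin 3, a = z ^ (k : ℕ) := by
      rintro z hz a (rfl | rfl | rfl)
      · exact ⟨0, (pow_zero _).symm⟩
      · exact ⟨1, (pow_one _).symm⟩
      · exact ⟨2, by
          show z⁻¹ = z ^ 2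
          rw [inv_eq_iff_mul_eq_one, pow_two, ← mul_assoc, ← p3, hz]⟩
    rintro ⟨g, hg⟩
    obtain ⟨a, b, ha, hb, rfl⟩ := mem_cases x3 y3 hg
    obtain ⟨i, rfl⟩ := key x3 a ha
    obtain ⟨j, rfl⟩ := key y3 b hb
    exact ⟨(i, j), rfl⟩
  have h1 : Nat.card (QQ x y h) ≤ 9 := by
    have := Nat.card_le_card_of_surjective _ hsurj
    simpa using this
  obtain ⟨n, hn⟩ := (IsPGroup.iff_card).1 (isPGroup_QQ (h := h) x3 y3)
  rw [hn] at h1 ⊢
  have : n ≤ 2 := by
    by_contra hlt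
    have : 3 ^ 3 ≤ 3 ^ n := Nat.pow_le_pow_right (by norm_num) (by omega)
    omega
  have := pow_dvd_pow 3 this
  simpa using this

namespace Quad

variable {r s d e : E}

/-- The group `Q = ⟨r s, d e⟩`. -/
def Q (q : Quad R r s d e) : Subgroup E := QQ (r * s) (d * e) q.xy

/-- `L = C(r, s, d, e)` -/
def L (_ : Quad R r s d e) : Subgroup E := Subgroup.centralizer {r, s, d, e}

theorem mem_L (q : Quad R r s d e) {g : E} :
    g ∈ q.L ↔ (g * r = r * g ∧ g * s = s * g) ∧ (g * d = d * g ∧ g * e = e * g) := by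
  show g ∈ Subgroup.centralizer {r, s, d, e} ↔ _
  rw [Subgroup.mem_centralizer_iff]
  constructor
  · intro h
    exact ⟨⟨(h r (by simp)).symm, (h s (by simp)).symm⟩, ⟨(h d (by simp)).symm, (h e (by simp)).symm⟩⟩
  · rintro ⟨⟨h1, h2⟩, h3, h4⟩ y hy
    rcases hy with rfl | rfl | rfl | hy
    · exact h1.symm
    · exact h2.symm
    · exact h3.symm
    · rw [Set.mem_singleton_iff.1 hy]; exact h4.symm

/-- products of opposite pairs in `Q` -/
theorem opp_in (H : Facts R) (q : Quad R r s d e) {r' s' : E} (hr' : r' ∈ R) (hs' : s' ∈ R) (h : Opp r' s')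
    (hm : r' * s' ∈ q.Q) : r' * s' = r * s ∨ r' * s' = (r * s)⁻¹ ∨ r' * s' = d * e ∨ r' * s' = (d * e)⁻¹ := by
  obtain ⟨a, b, ha, hb, hab⟩ := mem_cases q.x3 q.swap.x3 hm
  rcases ha with rfl | rfl | rfl
  · rw [one_mul] at hab
    rcases hb with rfl | rfl | rfl
    · exact absurd hab (opp_ne (H.sq s' hs') h)
    · exact Or.inr (Or.inr (Or.inl hab))
    · exact Or.inr (Or.inr (Or.inr hab))
  · rcases hb with rfl | rfl | rfl
    · rw [mul_one] at hab; exact Or.inl hab
    · exact absurd hab (not_xy H q hr' hs' h)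
    · rw [q.swap.inv_eq H] at hab
      exact absurd hab (not_xy H (q.flip2 H) hr' hs' h)
  · rcases hb with rfl | rfl | rfl
    · rw [mul_one] at hab; exact Or.inr (Or.inl hab)
    · rw [q.inv_eq H] at hab
      exact absurd hab (not_xy H (q.flip1 H) hr' hs' h)
    · rw [q.inv_eq H, q.swap.inv_eq H] at hab
      exact absurd hab (not_xy H ((q.flip1 H).flip2 H) hr' hs' h)

theorem x_ne_y (H : Facts R) (q : Quad R r s d e) : r * s ≠ d * e := by
  intro h
  refine ne_inv q.x3 (q.x_ne H) ?_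
  calc r * s = d * e := h
    _ = r * (d * e) * r⁻¹ := by rw [q.ry.eq]; group
    _ = r * (r * s) * r⁻¹ := by rw [h]
    _ = _ := q.rx H

theorem x_ne_yi (H : Facts R) (q : Quad R r s d e) : r * s ≠ (d * e)⁻¹ := by
  rw [q.swap.inv_eq H]
  exact (q.flip2 H).x_ne_y H

/-- **Elements of `N(Q)` whose cube centralises `Q` centralise `Q`.** -/
theorem no3 (H : Facts R) (q : Quad R r s d e) {g : E} (hg : ∀ a ∈ q.Q, g * a * g⁻¹ ∈ q.Q)
    (h3 : ∀ a ∈ q.Q, g * (g * (g * a * g⁻¹) * g⁻¹) * g⁻¹ = a) : g * (r * s) * g⁻¹ = r * s ∧ g * (d * e) * g⁻¹ = d * e := by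
  obtain ⟨a1, a2, a3, a4⟩ := opp_conj H q.r1 q.s1 q.rs g
  obtain ⟨b1, b2, b3, b4⟩ := opp_conj H q.d1 q.e1 q.de g
  have ka := q.opp_in H a1 a2 a3 (by rw [a4]; exact hg _ x_mem)
  have kb := q.opp_in H b1 b2 b3 (by rw [b4]; exact hg _ y_mem)
  rw [a4] at ka
  rw [b4] at kb
  have cx := h3 (r * s) x_mem
  have cy := h3 (d * e) y_mem
  have nx := ne_inv q.x3 (q.x_ne H)
  have ny := ne_inv q.swap.x3 (q.swap.x_ne H)
  have n1 := q.x_ne_y H
  have n2 := q.x_ne_yi H
  set x := r * s with hx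
  set y := d * e with hy
  have gi : ∀ a : E, g * a⁻¹ * g⁻¹ = (g * a * g⁻¹)⁻¹ := fun a => by group
  have inj : ∀ {a b : E}, g * a * g⁻¹ = g * b * g⁻¹ → a = b := by
    intro a b hab
    have := congrArg (fun x => g⁻¹ * x * g) hab
    simpa [mul_assoc] using this
  rcases ka with ka | ka | ka | ka
  · rcases kb with kb | kb | kb | kb
    · exact absurd (inj (ka.trans kb.symm)) n1
    · have : g * x⁻¹ * g⁻¹ = g * y * g⁻¹ := by rw [gi, ka, kb]
      exact absurd (by rw [← inj this, inv_inv]) n2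
    · exact ⟨ka, kb⟩
    · exfalso
      rw [kb, gi, kb, inv_inv, kb] at cy
      exact ny cy.symm
  · exfalso
    rw [ka, gi, ka, inv_inv, ka] at cx
    exact nx cx.symm
  · exfalso
    rcases kb with kb | kb | kb | kb
    · rw [ka, kb, ka] at cx
      exact n1 cx.symm
    · rw [ka, kb, gi, ka] at cx
      exact n2 cx.symm
    · exact n1 (inj (ka.trans kb.symm))
    · have : g * x⁻¹ * g⁻¹ = g * y * g⁻¹ := by rw [gi, ka, kb]
      exact n2 (by rw [← inj this, inv_inv])
  · exfalso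
    rcases kb with kb | kb | kb | kb
    · rw [ka, gi, kb, gi, ka, inv_inv] at cx
      exact n1 cx.symm
    · rw [ka, gi, kb, inv_inv, ka] at cx
      exact n2 cx.symm
    · have : g * x⁻¹ * g⁻¹ = g * y * g⁻¹ := by rw [gi, ka, kb, inv_inv]
      exact n2 (by rw [← inj this, inv_inv])
    · exact n1 (inj (ka.trans kb.symm))

/-- `C(Q) = Q ⊔ L` -/
theorem cent_eq (H : Facts R) (q : Quad R r s d e) : Subgroup.centralizer (q.Q : Set E) = q.Q ⊔ q.L := by
  apply le_antisymm
  · intro g hg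
    obtain ⟨h1, h2⟩ := mem_cent_QQ.1 hg
    -- strip the factor in `⟨x⟩`
    obtain ⟨c, hc, hgc⟩ := cent_dec H q.r1 q.s1 q.rs h1
    have hxc : ∃ a ∈ q.Q, a * c = g ∧ Commute a (d * e) := by
      rcases hgc with k | k | k
      · exact ⟨1, one_mem _, by rw [k, one_mul], Commute.one_left _⟩
      · exact ⟨r * s, x_mem, k.symm, q.xy⟩
      · exact ⟨r * s * (r * s), mul_mem x_mem x_mem, k.symm, q.xy.mul_left q.xy⟩
    obtain ⟨a, ha, hac, hay⟩ := hxc
    have hcy : c * (d * e) = (d * e) * c := by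
      have h5 : Commute g (d * e) := h2
      have h6 : c = a⁻¹ * g := by rw [← hac]; group
      rw [h6]
      exact (hay.inv_left.mul_left h5).eq
    obtain ⟨c', hc', hgc'⟩ := cent_dec H q.d1 q.e1 q.de hcy
    have hyc : ∃ b ∈ q.Q, b * c' = c ∧ Commute b r ∧ Commute b s := by
      rcases hgc' with k | k | k
      · exact ⟨1, one_mem _, by rw [k, one_mul], Commute.one_left _, Commute.one_left _⟩
      · exact ⟨d * e, y_mem, k.symm, q.ry.symm, q.sy.symm⟩
      · exact ⟨d * e * (d * e), mul_mem y_mem y_mem, k.symm, q.ry.symm.mul_left q.ry.symm, q.sy.symm.mul_left q.sy.symm⟩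
    obtain ⟨b, hb, hbc, hbr, hbs⟩ := hyc
    have hc'L : c' ∈ q.L := by
      rw [mem_L]
      have h6 : c' = b⁻¹ * c := by rw [← hbc]; group
      refine ⟨⟨?_, ?_⟩, hc'⟩
      · rw [h6]; exact (hbr.inv_left.mul_left (show Commute c r from hc.1)).eq
      · rw [h6]; exact (hbs.inv_left.mul_left (show Commute c s from hc.2)).eq
    rw [← hac, ← hbc, ← mul_assoc]
    exact mul_mem (Subgroup.mem_sup_left (mul_mem ha hb)) (Subgroup.mem_sup_right hc'L)
  · rw [sup_le_iff]
    refine ⟨QQ_le, fun g hg => ?_⟩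
    obtain ⟨⟨h1, h2⟩, h3, h4⟩ := (mem_L q).1 hg
    exact mem_cent_QQ.2 ⟨((show Commute g r from h1).mul_right (show Commute g s from h2)).eq,
      ((show Commute g d from h3).mul_right (show Commute g e from h4)).eq⟩

/-- `Q ⊓ L = 1` -/
theorem inf_eq (H : Facts R) (q : Quad R r s d e) : q.Q ⊓ q.L = ⊥ := by
  rw [eq_bot_iff]
  intro g hg
  obtain ⟨hgQ, hgL⟩ := Subgroup.mem_inf.1 hg
  obtain ⟨⟨h1, h2⟩, h3, h4⟩ := (mem_L q).1 hgL
  obtain ⟨a, b, ha, hb, rfl⟩ := mem_cases q.x3 q.swap.x3 hgQ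
  have nx := ne_inv q.x3 (q.x_ne H)
  have ny := ne_inv q.swap.x3 (q.swap.x_ne H)
  -- `r` inverts `a` and centralises `b`
  have hbr : Commute b r := by
    rcases hb with rfl | rfl | rfl
    · exact Commute.one_left _
    · exact q.ry.symm
    · exact q.ry.symm.inv_left
  have had : Commute a d := by
    rcases ha with rfl | rfl | rfl
    · exact Commute.one_left _
    · exact q.swap.ry.symm
    · exact q.swap.ry.symm.inv_left
  have har : a * r = r * a := by
    have : Commute (a * b * b⁻¹) r := (show Commute (a * b) r from h1).mul_left hbr.inv_left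
    rwa [mul_inv_cancel_right] at this
  have hbd : b * d = d * b := by
    have : Commute (a⁻¹ * (a * b)) d := had.inv_left.mul_left (show Commute (a * b) d from h3)
    rwa [inv_mul_cancel_left] at this
  have a1 : a = 1 := by
    rcases ha with rfl | rfl | rfl
    · rfl
    · exfalso
      apply nx
      rw [← q.rx H, ← har]; group
    · exfalso
      apply nx
      have h5 : Commute (r * s) r := Commute.inv_left_iff.1 (show Commute (r * s)⁻¹ r from har)
      rw [← q.rx H, ← h5.eq]; group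
  have b1 : b = 1 := by
    rcases hb with rfl | rfl | rfl
    · rfl
    · exfalso
      apply ny
      rw [← q.swap.rx H, ← hbd]; group
    · exfalso
      apply ny
      have h5 : Commute (d * e) d := Commute.inv_left_iff.1 (show Commute (d * e)⁻¹ d from hbd)
      rw [← q.swap.rx H, ← h5.eq]; group
  rw [a1, b1, one_mul]
  exact Subgroup.mem_bot.2 rfl

/-- **`N(Q)/C(Q)` is a `3'`-group.** -/
theorem relIndex [Finite E] (H : Facts R) (q : Quad R r s d e) :
    ¬ 3 ∣ (Subgroup.centralizer (q.Q : Set E)).relIndex (Subgroup.normalizer (q.Q : Set E)) := by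
  intro hdvd
  have hk := Subgroup.normalizerMonoidHom_ker q.Q
  rw [Subgroup.relIndex, ← hk, Subgroup.index_ker] at hdvd
  haveI : Fact (Nat.Prime 3) := ⟨by norm_num⟩
  obtain ⟨⟨_, n, rfl⟩, hn⟩ := exists_prime_orderOf_dvd_card' 3 hdvd
  have hn1 : (q.Q.normalizerMonoidHom n) ^ 3 = 1 := by
    have := pow_orderOf_eq_one (⟨q.Q.normalizerMonoidHom n, ⟨n, rfl⟩⟩ : (q.Q.normalizerMonoidHom).range)
    rw [hn] at this
    exact congrArg Subtype.val this
  have hn2 : q.Q.normalizerMonoidHom n ≠ 1 := by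
    intro h1
    have : (⟨q.Q.normalizerMonoidHom n, ⟨n, rfl⟩⟩ : (q.Q.normalizerMonoidHom).range) = 1 := Subtype.ext h1
    rw [this, orderOf_one] at hn
    norm_num at hn
  apply hn2
  have act : ∀ a : q.Q, ((q.Q.normalizerMonoidHom n a : q.Q) : E) = (n : E) * a * (n : E)⁻¹ := fun a => rfl
  have hmem : ∀ a ∈ q.Q, (n : E) * a * (n : E)⁻¹ ∈ q.Q := fun a ha => by
    have := (q.Q.normalizerMonoidHom n ⟨a, ha⟩).2
    rwa [act] at this
  have key := q.no3 H hmem (fun a ha => by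
    have h1 : ((q.Q.normalizerMonoidHom n) ^ 3) ⟨a, ha⟩ = ⟨a, ha⟩ := by rw [hn1]; rfl
    have h2 := congrArg Subtype.val h1
    rw [pow_succ, pow_two] at h2
    exact h2)
  ext a
  rw [act]
  obtain ⟨i, j, hij⟩ := a.2
  show (n : E) * a * (n : E)⁻¹ = a
  rw [hij]
  have c1 : Commute (n : E) (r * s) := mul_inv_eq_iff_eq_mul.1 key.1
  have c2 : Commute (n : E) (d * e) := mul_inv_eq_iff_eq_mul.1 key.2
  rw [((c1.zpow_right i).mul_right (c2.zpow_right j)).eq]
  group

end Quad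

end Cfsg.Agent.H720.RIM
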